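import Cfsg.Agent.H46.Engine

/-!
Words in root elements whose parameters are monomials in any number of variables, evaluated symbolically on basis
vectors and compared modulo the characteristic.
-/

set_option autoImplicit false

open Cfsg.Lie Cfsg.Agent.H46
open scoped Matrix

namespace Cfsg.Agent.H19.PolyWord

/-- A term `c · (∏ f i) · e_row`, as `(row, monomial, c)`. -/
abbrev MTerm := ℕ × List ℕ × ℤ

/-- A root element with parameter `c · ∏ f i`. -/
abbrev PEl := ℕ × ℤ × List ℕ

/-- Apply a root element. -/
noncomputable def appP (D : ChevalleyDatum) (T : Tab) (e : PEl) (v : List MTerm) : List MTerm :=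
  v.flatMap fun t => if t.1 < D.rank + D.nroots then
    (colI D T e.1 t.1).map (fun q => (q.1, ((List.replicate q.2.1 e.2.2).flatten ++ t.2.1).insertionSort (· ≤ ·),
      t.2.2 * q.2.2 * e.2.1 ^ q.2.1))
    else []

/-- Merge a term. -/
def insP (t : MTerm) : List MTerm → List MTerm
  | [] => [t]
  | h :: tl => if t.1 = h.1 ∧ t.2.1 = h.2.1 then (h.1, h.2.1, t.2.2 + h.2.2) :: tl else h :: insP t tl

/-- Merge equal monomials. -/
def normP (v : List MTerm) : List MTerm := v.foldr insP []

/-- Apply a word. -/
noncomputable def appPW (D : ChevalleyDatum) (T : Tab) : List PEl → List MTerm → List MTerm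
  | [], v => v
  | e :: w, v => normP (appP D T e (appPW D T w v))

/-- Negation. -/
def negP (v : List MTerm) : List MTerm := v.map fun t => (t.1, t.2.1, -t.2.2)

/-- All coefficients vanish modulo `p`. -/
def zeroMod (p : ℕ) (v : List MTerm) : Bool := (normP v).all fun t => decide (t.2.2 % (p : ℤ) = 0)

/-- All roots in range. -/
def okP (D : ChevalleyDatum) (w : List PEl) : Bool := w.all fun e => decide (e.1 < D.nroots)

variable {D : ChevalleyDatum} {F : Type*} [Field F]

/-- The value of a monomial. -/
def monVal (f : ℕ → F) (l : List ℕ) : F := (l.map f).prod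

/-- The value of a vector. -/
def evP (D : ChevalleyDatum) (f : ℕ → F) (v : List MTerm) : D.Idx → F :=
  (v.map fun t => ((t.2.2 : F) * monVal f t.2.1) • bvec D F t.1).sum

/-- The word as a list of roots with field parameters. -/
def realP (f : ℕ → F) (w : List PEl) : List (ℕ × F) := w.map fun e => (e.1, (e.2.1 : F) * monVal f e.2.2)

theorem evP_cons (f : ℕ → F) (a : MTerm) (v : List MTerm) :
    evP D f (a :: v) = ((a.2.2 : F) * monVal f a.2.1) • bvec D F a.1 + evP D f v := rfl

theorem evP_append (f : ℕ → F) (v w : List MTerm) : evP D f (v ++ w) = evP D f v + evP D f w := by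
  simp [evP]

theorem evP_single (f : ℕ → F) (c : ℕ) : evP D f [(c, [], 1)] = bvec D F c := by simp [evP, monVal]

theorem evP_insP (f : ℕ → F) (a : MTerm) :
    ∀ v : List MTerm, evP D f (insP a v) = ((a.2.2 : F) * monVal f a.2.1) • bvec D F a.1 + evP D f v
  | [] => rfl
  | h :: tl => by
    unfold insP
    split
    · next hh =>
      obtain ⟨h1, h2⟩ := hh
      simp only [evP_cons, h1, h2, Int.cast_add, add_mul, add_smul]
      abel
    · simp only [evP_cons, evP_insP f a tl]
      abel

theorem evP_normP (f : ℕ → F) (v : List MTerm) : evP D f (normP v) = evP D f v := by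
  induction v with
  | nil => rfl
  | cons a v ih => rw [normP, List.foldr_cons, evP_insP, ← normP, ih, evP_cons]

theorem evP_negP (f : ℕ → F) (v : List MTerm) : evP D f (negP v) = -evP D f v := by
  induction v with
  | nil => simp [negP, evP]
  | cons a v ih =>
    simp only [negP, List.map_cons] at ih ⊢
    rw [evP_cons, evP_cons, ih]
    simp [add_comm]

theorem evP_eq_zero {p : ℕ} [CharP F p] (f : ℕ → F) {v : List MTerm} (h : zeroMod p v = true) :
    evP D f v = 0 := by
  rw [← evP_normP]
  refine List.sum_eq_zero fun x hx => ?_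
  obtain ⟨t, ht, rfl⟩ := List.mem_map.1 hx
  simp only [zeroMod, List.all_eq_true, decide_eq_true_eq] at h
  rw [(CharP.intCast_eq_zero_iff F p t.2.2).2 (Int.dvd_of_emod_eq_zero (h t ht))]
  simp

theorem evP_eq_of_zeroMod {p : ℕ} [CharP F p] (f : ℕ → F) {v w : List MTerm}
    (h : zeroMod p (v ++ negP w) = true) : evP D f v = evP D f w := by
  have := evP_eq_zero (D := D) f h
  rwa [evP_append, evP_negP, ← sub_eq_add_neg, sub_eq_zero] at this

theorem monVal_step (f : ℕ → F) (k : ℕ) (e l : List ℕ) :
    monVal f (((List.replicate k e).flatten ++ l).insertionSort (· ≤ ·)) = monVal f e ^ k * monVal f l := by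
  rw [monVal, ((List.perm_insertionSort (· ≤ ·) _).map f).prod_eq, List.map_append, List.prod_append,
    List.map_flatten, List.prod_flatten, List.map_replicate, List.map_replicate, List.prod_replicate]
  rfl

theorem evP_appP (G : Good D) (f : ℕ → F) (e : PEl) (he : e.1 < D.nroots) (v : List MTerm) :
    D.x F e.1 ((e.2.1 : F) * monVal f e.2.2) *ᵥ evP D f v = evP D f (appP D G.tab e v) := by
  induction v with
  | nil => simp [appP, evP]
  | cons a v ih =>
    rw [evP_cons, Matrix.mulVec_add, ih]
    simp only [appP, List.flatMap_cons, evP_append]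
    congr 1
    rw [Matrix.mulVec_smul]
    by_cases hc : a.1 < D.rank + D.nroots
    · rw [if_pos hc, G.x_mulVec_bvec he _ hc, List.smul_sum, evP, List.map_map, List.map_map]
      apply congrArg
      apply List.map_congr_left
      intro q _
      simp only [Function.comp_def, smul_smul, monVal_step]
      congr 1
      push_cast
      rw [mul_pow]
      ring
    · rw [if_neg hc, bvec_eq_zero (not_lt.1 hc)]
      simp [evP]

theorem evP_appPW (G : Good D) (f : ℕ → F) (v : List MTerm) :
    ∀ w : List PEl, okP D w = true →
      D.wordMat F (realP f w) *ᵥ evP D f v = evP D f (appPW D G.tab w v)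
  | [], _ => by simp [ChevalleyDatum.wordMat, realP, appPW]
  | e :: w, h => by
    simp only [okP, List.all_cons, Bool.and_eq_true, decide_eq_true_eq] at h
    rw [appPW, evP_normP, ← evP_appP G f e h.1, ← evP_appPW G f v w h.2, Matrix.mulVec_mulVec]
    rfl

theorem evP_filter (f : ℕ → F) (x : D.Idx) (v : List MTerm) :
    evP D f (v.filter fun t => decide (t.1 = code D x)) x = evP D f v x := by
  induction v with
  | nil => rfl
  | cons a v ih =>
    by_cases h : a.1 = code D x
    · rw [List.filter_cons_of_pos (by simp [h]), evP_cons, evP_cons, Pi.add_apply, Pi.add_apply, ih]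
    · rw [List.filter_cons_of_neg (by simp [h]), evP_cons, Pi.add_apply, ih]
      simp [bvec, Ne.symm h]

end Cfsg.Agent.H19.PolyWord
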