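import Cfsg.Agent.H19.PolyWord
import Cfsg.Agent.H48.Ree.Coords
import Cfsg.Agent.H65.Twist.Ree

/-!
The trace, in the adjoint representation of G₂ in characteristic three, of the product of an element of the positive
unipotent group, a torus element and the longest reflection.
-/

set_option autoImplicit false

open Cfsg.Lie Cfsg.Agent.H46 Cfsg.Agent.H65.Twist
open scoped Matrix

namespace Cfsg.Agent.H19.ReeTrace

open PolyWord

/-- The word of `P a b c d g h`. -/
def pWord : List PEl := [(7, 1, [0]), (6, 1, [1]), (8, 1, [2]), (9, 1, [3]), (10, 1, [4]), (11, 1, [5])]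

/-- The longest reflection as a word. -/
def nWord : List PEl := reeTopWord.map fun e => (e.1, e.2, [])

/-- The image of a position under the longest reflection. -/
def sig (c : ℕ) : ℕ := if c < 2 then c else 15 - c

/-- The expected entries in the positions `(c, sig c)`. -/
def expL : ℕ → List MTerm
  | 0 => [(0, [], 1)]
  | 1 => [(1, [], 1)]
  | 8 => [(8, [1, 1], -1)]
  | 9 => [(9, [0, 0], -1)]
  | 10 => [(10, [2, 2], -1), (10, [1, 3], 1)]
  | 11 => [(11, [3, 3], -1), (11, [2, 4], -1), (11, [0, 5], 1), (11, [0, 2, 3], -1), (11, [0, 1, 4], 1)]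
  | 12 => [(12, [4, 4], -1), (12, [0, 0, 0, 5], 1), (12, [0, 0, 0, 1, 4], 1)]
  | 13 => [(13, [5, 5], -1), (13, [2, 2, 2, 4], -1), (13, [1, 4, 5], -1), (13, [1, 3, 3, 3], 1)]
  | _ => []

/-- The certificate for the entries. -/
theorem entries_check : (okP chevG2 pWord && (List.range 14).all fun c =>
    zeroMod 3 ((appPW chevG2 tabG2 pWord [(sig c, [], 1)]).filter (fun t => decide (t.1 = c)) ++ negP (expL c)) &&
      ((expL c).all fun t => decide (t.1 = c))) = true := by decide +kernel

/-- The certificate for the reflection. -/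
theorem refl_check : (okP chevG2 nWord && (List.range 14).all fun c =>
    zeroMod 3 (appPW chevG2 tabG2 nWord [(c, [], 1)] ++ negP [(sig c, [], -1)])) = true := by decide +kernel

variable {F : Type*} [Field F]

theorem coe_P (a b c d g h : F) :
    (H48.Ree.P a b c d g h : Matrix chevG2.Idx chevG2.Idx F) =
      chevG2.wordMat F (realP (fun i => [a, b, c, d, g, h].getD i 0) pWord) := by
  simp [H48.Ree.P, pWord, realP, monVal, ChevalleyDatum.wordMat, Units.val_mul, goodG2.coe_xg, mul_assoc]

theorem evP_apply_of_rows (f : ℕ → F) (x : chevG2.Idx) {v : List MTerm}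
    (h : v.all (fun t => decide (t.1 = code chevG2 x)) = true) :
    evP chevG2 f v x = (v.map fun t => (t.2.2 : F) * monVal f t.2.1).sum := by
  induction v with
  | nil => rfl
  | cons a v ih =>
    simp only [List.all_cons, Bool.and_eq_true, decide_eq_true_eq] at h
    rw [evP_cons, Pi.add_apply, ih h.2, List.map_cons, List.sum_cons]
    simp [bvec, h.1]

variable [CharP F 3]

theorem refl_mulVec {c : ℕ} (hc : c < 14) :
    ((wordEl goodG2 reeTopWord : GL chevG2.Idx F) : Matrix chevG2.Idx chevG2.Idx F) *ᵥ bvec chevG2 F c =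
      -bvec chevG2 F (sig c) := by
  have h := refl_check
  simp only [Bool.and_eq_true, List.all_eq_true, List.mem_range] at h
  have e : chevG2.wordMat F (realW (1 : F) 1 (constW reeTopWord)) =
      chevG2.wordMat F (realP (fun _ => (0 : F)) nWord) := by
    simp [realW, constW, realP, nWord, monVal, List.map_map, Function.comp_def]
  rw [coe_wordEl, e, ← evP_single (D := chevG2) (fun _ => (0 : F)) c, evP_appPW goodG2 _ _ _ h.1]
  have h2 := evP_eq_of_zeroMod (D := chevG2) (fun _ => (0 : F)) (h.2 c hc)
  rw [show (goodG2.tab) = tabG2 from rfl, h2]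
  simp [evP, monVal]

/-- The value on the diagonal in position `x`. -/
theorem diag_entry (a b c d g h : F) (z : Fin chevG2.rank → Fˣ) (x : chevG2.Idx) :
    ((H48.Ree.P a b c d g h * goodG2.torus z * wordEl goodG2 reeTopWord : GL chevG2.Idx F) :
        Matrix chevG2.Idx chevG2.Idx F) x x =
      -((if code chevG2 x < 2 then 1 else (goodG2.torusVal z (13 - code chevG2 x) : F)) *
        ((expL (code chevG2 x)).map fun t => (t.2.2 : F) *
          monVal (fun i => [a, b, c, d, g, h].getD i 0) t.2.1).sum) := by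
  have hk : code chevG2 x < 14 := code_lt x
  have hh := entries_check
  simp only [Bool.and_eq_true, List.all_eq_true, List.mem_range] at hh
  obtain ⟨h1, h2⟩ := hh.2 _ hk
  have hM : ∀ M : Matrix chevG2.Idx chevG2.Idx F, M x x = (M *ᵥ bvec chevG2 F (code chevG2 x)) x := fun M => by
    rw [bvec_code, Matrix.mulVec_single_one]; rfl
  refine (hM _).trans ?_
  rw [Units.val_mul, Units.val_mul, ← Matrix.mulVec_mulVec, ← Matrix.mulVec_mulVec, refl_mulVec hk,
    Matrix.mulVec_neg, Matrix.mulVec_neg, goodG2.coe_torus]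
  have hW : ((H48.Ree.P a b c d g h : GL chevG2.Idx F) : Matrix chevG2.Idx chevG2.Idx F) *ᵥ
      bvec chevG2 F (sig (code chevG2 x)) = evP chevG2 (fun i => [a, b, c, d, g, h].getD i 0)
        (appPW chevG2 tabG2 pWord [(sig (code chevG2 x), [], 1)]) := by
    rw [coe_P, ← evP_single (D := chevG2) (fun i => [a, b, c, d, g, h].getD i 0) (sig (code chevG2 x)),
      evP_appPW goodG2 _ _ _ hh.1]
    rfl
  have hx : evP chevG2 (fun i => [a, b, c, d, g, h].getD i 0)
      (appPW chevG2 tabG2 pWord [(sig (code chevG2 x), [], 1)]) x =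
        ((expL (code chevG2 x)).map fun t => (t.2.2 : F) *
          monVal (fun i => [a, b, c, d, g, h].getD i 0) t.2.1).sum := by
    rw [← evP_filter, evP_eq_of_zeroMod _ h1]
    exact evP_apply_of_rows _ x (by simpa [List.all_eq_true] using h2)
  by_cases hlt : code chevG2 x < 2
  · rw [if_pos hlt, show sig (code chevG2 x) = code chevG2 x from if_pos hlt,
      rdiag_mulVec_h _ (by exact hlt), Pi.neg_apply]
    rw [show sig (code chevG2 x) = code chevG2 x from if_pos hlt] at hW hx
    rw [hW, hx, one_mul]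
  · rw [if_neg hlt, show sig (code chevG2 x) = chevG2.rank + (13 - code chevG2 x) by
        simp only [sig, if_neg hlt, show chevG2.rank = 2 from rfl]; omega,
      rdiag_mulVec_e _ (show 13 - code chevG2 x < chevG2.nroots by
        rw [show chevG2.nroots = 12 from rfl]; omega)]
    rw [show sig (code chevG2 x) = chevG2.rank + (13 - code chevG2 x) by
        simp only [sig, if_neg hlt, show chevG2.rank = 2 from rfl]; omega] at hW hx
    rw [Matrix.mulVec_smul, hW, Pi.neg_apply, Pi.smul_apply, smul_eq_mul, hx]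

/-- The trace formula. -/
theorem trace_P_torus_refl (a b c d g h : F) (z : Fin chevG2.rank → Fˣ) :
    Matrix.trace ((H48.Ree.P a b c d g h * goodG2.torus z * wordEl goodG2 reeTopWord : GL chevG2.Idx F) :
        Matrix chevG2.Idx chevG2.Idx F) =
      1 + b ^ 2 * ((goodG2.torusVal z 6)⁻¹ : Fˣ) + a ^ 2 * ((goodG2.torusVal z 7)⁻¹ : Fˣ) +
        (c ^ 2 - b * d) * ((goodG2.torusVal z 8)⁻¹ : Fˣ) +
        (d ^ 2 + c * g - a * h + a * c * d - a * b * g) * ((goodG2.torusVal z 9)⁻¹ : Fˣ) +
        (g ^ 2 - a ^ 3 * h - a ^ 3 * b * g) * ((goodG2.torusVal z 10)⁻¹ : Fˣ) +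
        (h ^ 2 + c ^ 3 * g + b * g * h - b * d ^ 3) * ((goodG2.torusVal z 11)⁻¹ : Fˣ) := by
  have hinl : ∀ i : Fin chevG2.rank, code chevG2 (Sum.inl i) = i.val := fun i => rfl
  have hinr : ∀ s : Fin chevG2.nroots, code chevG2 (Sum.inr s) = 2 + s.val := fun s => rfl
  have hneg : ∀ r, 6 ≤ r → r < 12 → goodG2.torusVal z (11 - r) = (goodG2.torusVal z r)⁻¹ := fun r h1 h2 => by
    rw [← goodG2.torusVal_neg (show r < chevG2.nroots from h2)]
    congr 1
    exact (goodG2.neg_eq (show r < chevG2.nroots from h2)).symm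
  unfold Matrix.trace
  rw [Fintype.sum_sum_type]
  simp only [Matrix.diag_apply, diag_entry, hinl, hinr]
  rw [Fin.sum_univ_eq_sum_range (fun k => -((if k < 2 then (1 : F) else (goodG2.torusVal z (13 - k) : F)) *
      ((expL k).map fun t => (t.2.2 : F) * monVal (fun i => [a, b, c, d, g, h].getD i 0) t.2.1).sum)),
    Fin.sum_univ_eq_sum_range (fun s => -((if 2 + s < 2 then (1 : F) else (goodG2.torusVal z (13 - (2 + s)) : F)) *
      ((expL (2 + s)).map fun t => (t.2.2 : F) * monVal (fun i => [a, b, c, d, g, h].getD i 0) t.2.1).sum)),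
    show chevG2.rank = 2 from rfl, show chevG2.nroots = 12 from rfl]
  simp only [Finset.sum_range_succ, Finset.sum_range_zero, expL, Nat.reduceAdd, Nat.reduceSub, Nat.reduceLT,
    if_true, if_false, List.map_cons, List.map_nil, List.sum_cons, List.sum_nil, monVal, List.prod_cons,
    List.prod_nil, List.getD_cons_zero, List.getD_cons_succ, Int.cast_neg, Int.cast_one]
  have e6 := hneg 6 le_rfl (by norm_num)
  have e7 := hneg 7 (by norm_num) (by norm_num)
  have e8 := hneg 8 (by norm_num) (by norm_num)
  have e9 := hneg 9 (by norm_num) (by norm_num)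
  have e10 := hneg 10 (by norm_num) (by norm_num)
  have e11 := hneg 11 (by norm_num) (by norm_num)
  norm_num at e6 e7 e8 e9 e10 e11
  simp only [e6, e7, e8, e9, e10, e11]
  linear_combination (-1 : F) * H48.Ree.three0 (F := F)

end Cfsg.Agent.H19.ReeTrace
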