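import Cfsg.Agent.H19.Misc
import Cfsg.Agent.S0144

/-! Sylow systems and the converse of Hall's theorem. -/

open scoped Pointwise

namespace Cfsg.Agent.H19

variable {G : Type*} [Group G]

/-- The product set of two subgroups meeting trivially has the product order. -/
theorem card_mul_of_disjoint (H K : Subgroup G) (h : Disjoint H K) :
    Nat.card ((H : Set G) * (K : Set G) : Set G) = Nat.card H * Nat.card K := by
  rw [← Nat.card_prod]
  refine (Nat.card_congr (Equiv.ofBijective
    (fun x : H × K => (⟨(x.1 : G) * x.2, Set.mul_mem_mul x.1.2 x.2.2⟩ : ((H : Set G) * (K : Set G) : Set G)))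
    ⟨fun a b e => Subgroup.mul_injective_of_disjoint h (congr_arg Subtype.val e), ?_⟩)).symm
  rintro ⟨_, a, ha, b, hb, rfl⟩
  exact ⟨(⟨a, ha⟩, ⟨b, hb⟩), rfl⟩

/-- Permutable subgroups multiply to a subgroup. -/
theorem coe_sup_of_commute (H K : Subgroup G)
    (h : (H : Set G) * (K : Set G) = (K : Set G) * (H : Set G)) :
    ((H ⊔ K : Subgroup G) : Set G) = (H : Set G) * (K : Set G) := by
  let L : Subgroup G :=
    { carrier := (H : Set G) * (K : Set G)
      one_mem' := ⟨1, H.one_mem, 1, K.one_mem, one_mul 1⟩
      mul_mem' := fun {a b} ha hb => by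
        have hc := Set.mul_mem_mul ha hb
        rwa [mul_assoc (H : Set G), ← mul_assoc (K : Set G) (H : Set G), ← h, mul_assoc (H : Set G),
          coe_mul_coe K, ← mul_assoc, coe_mul_coe H] at hc
      inv_mem' := fun {a} ha => by
        obtain ⟨x, hx, y, hy, rfl⟩ := ha
        show _ ∈ (H : Set G) * (K : Set G)
        rw [h, mul_inv_rev]
        exact Set.mul_mem_mul (K.inv_mem hy) (H.inv_mem hx) }
  have : H ⊔ K = L := by
    refine le_antisymm (sup_le (fun x hx => ?_) (fun x hx => ?_)) ?_
    · exact ⟨x, hx, 1, K.one_mem, mul_one x⟩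
    · exact ⟨1, H.one_mem, x, hx, one_mul x⟩
    · rintro _ ⟨x, hx, y, hy, rfl⟩
      exact Subgroup.mul_mem_sup hx hy
  rw [this]; rfl

/-- A family of Hall `p`-complements meets in subgroups of product index. -/
theorem index_iInf_complements [Finite G] (K : ℕ → Subgroup G) (e : ℕ → ℕ) (s : Finset ℕ)
    (hs : ∀ p ∈ s, p.Prime) (hK : ∀ p ∈ s, (K p).index = p ^ e p) :
    (⨅ p ∈ s, K p).index = ∏ p ∈ s, p ^ e p := by
  induction s using Finset.induction_on with
  | empty => simp
  | @insert a t ha ih =>
    have h1 := ih (fun p hp => hs p (Finset.mem_insert_of_mem hp))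
      (fun p hp => hK p (Finset.mem_insert_of_mem hp))
    have hcop : (K a).index.Coprime (⨅ p ∈ t, K p).index := by
      rw [h1, hK a (Finset.mem_insert_self a t)]
      refine Nat.Coprime.prod_right fun q hq => ?_
      exact Nat.Coprime.pow _ _ ((Nat.coprime_primes (hs a (Finset.mem_insert_self a t))
        (hs q (Finset.mem_insert_of_mem hq))).2 (fun h => ha (h ▸ hq)))
    rw [Finset.iInf_insert, (index_inf_of_coprime hcop).1, Finset.prod_insert ha, h1,
      hK a (Finset.mem_insert_self a t)]

/-- A finite solvable group has a Sylow system. -/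
theorem exists_sylow_system [Finite G] [Group.IsSolvable G] :
    ∃ S : (p : Nat.Primes) → Sylow (p : ℕ) G,
      ∀ p q : Nat.Primes, (S p : Set G) * (S q : Set G) = (S q : Set G) * (S p : Set G) := by
  classical
  set N := Nat.card G with hN
  have hKex : ∀ p : ℕ, ∃ H : Subgroup G, p.Prime → H.index = p ^ N.factorization p := fun p => by
    by_cases hp : p.Prime
    · exact (exists_pComplement hp).imp fun _ h _ => h
    · exact ⟨⊤, fun h => absurd h hp⟩
  choose K hK using hKex
  let I : Finset ℕ → Subgroup G := fun t => ⨅ p ∈ N.primeFactors \ t, K p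
  have hI : ∀ t : Finset ℕ, t ⊆ N.primeFactors → Nat.card (I t) = ∏ p ∈ t, p ^ N.factorization p := by
    intro t ht
    have h1 : (I t).index = _ := index_iInf_complements K N.factorization (N.primeFactors \ t)
      (fun p hp => Nat.prime_of_mem_primeFactors (Finset.mem_sdiff.1 hp).1)
      (fun p hp => hK p (Nat.prime_of_mem_primeFactors (Finset.mem_sdiff.1 hp).1))
    refine Nat.eq_of_mul_eq_mul_right (Nat.pos_of_ne_zero (Subgroup.index_ne_zero_of_finite (H := I t))) ?_
    rw [(I t).card_mul_index]
    conv_rhs => rw [h1, mul_comm, Finset.prod_sdiff ht]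
    exact (Nat.prod_factorization_pow_eq_self Nat.card_pos.ne').symm
  have hcard : ∀ p : Nat.Primes,
      Nat.card (I (N.primeFactors ∩ {(p : ℕ)})) = (p : ℕ) ^ N.factorization p := by
    intro p
    rw [hI _ Finset.inter_subset_left]
    by_cases hp : (p : ℕ) ∈ N.primeFactors
    · rw [Finset.inter_singleton_of_mem hp, Finset.prod_singleton]
    · have : N.factorization p = 0 := by
        rw [← Nat.support_factorization, Finsupp.notMem_support_iff] at hp; exact hp
      rw [Finset.inter_singleton_of_notMem hp, Finset.prod_empty, this, pow_zero]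
  have hT : ∀ p : Nat.Primes, ∃ P : Sylow (p : ℕ) G, (P : Subgroup G) = I (N.primeFactors ∩ {(p : ℕ)}) := by
    intro p
    have : Fact (p : ℕ).Prime := ⟨p.2⟩
    exact ⟨Sylow.ofCard _ (hcard p), rfl⟩
  choose S hS using hT
  refine ⟨S, fun p q => ?_⟩
  rcases eq_or_ne p q with rfl | hpq
  · rfl
  have key : ∀ a b : Nat.Primes, a ≠ b → (S a : Set G) * (S b : Set G) =
      (I (N.primeFactors ∩ {(a : ℕ), (b : ℕ)}) : Set G) := by
    intro a b hab
    have hne : (a : ℕ) ≠ b := fun h => hab (Subtype.ext h)
    have hca : Nat.card (S a : Subgroup G) = (a : ℕ) ^ N.factorization a := (hS a).symm ▸ hcard a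
    have hcb : Nat.card (S b : Subgroup G) = (b : ℕ) ^ N.factorization b := (hS b).symm ▸ hcard b
    have hdis : Disjoint (S a : Subgroup G) (S b : Subgroup G) := by
      have : Fact (a : ℕ).Prime := ⟨a.2⟩
      have : Fact (b : ℕ).Prime := ⟨b.2⟩
      exact IsPGroup.disjoint_of_ne (a : ℕ) (b : ℕ) hne _ _ (S a).2 (S b).2
    have hsub : ((S a : Set G) * (S b : Set G)) ⊆ (I (N.primeFactors ∩ {(a : ℕ), (b : ℕ)}) : Set G) := by
      rintro _ ⟨x, hx, y, hy, rfl⟩
      have hmono : ∀ c : ℕ, c ∈ ({(a : ℕ), (b : ℕ)} : Finset ℕ) →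
          I (N.primeFactors ∩ {c}) ≤ I (N.primeFactors ∩ {(a : ℕ), (b : ℕ)}) := fun c hc =>
        biInf_mono fun r hr => by
          simp only [Finset.mem_sdiff, Finset.mem_inter, Finset.mem_singleton] at hr ⊢
          exact ⟨hr.1, fun h => hr.2 ⟨h.1, by rw [h.2]; exact hc⟩⟩
      refine Subgroup.mul_mem _ (hmono a (by simp) ?_) (hmono b (by simp) ?_)
      · rw [← hS a]; exact hx
      · rw [← hS b]; exact hy
    refine Set.eq_of_subset_of_ncard_le hsub ?_ (Set.toFinite _)
    rw [← Nat.card_coe_set_eq, ← Nat.card_coe_set_eq]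
    show Nat.card (I _) ≤ _
    refine le_of_eq ?_
    have hh : Nat.card ((S a : Set G) * (S b : Set G) : Set G) =
        Nat.card (S a : Subgroup G) * Nat.card (S b : Subgroup G) := card_mul_of_disjoint _ _ hdis
    rw [hh, hI _ Finset.inter_subset_left, hca, hcb]
    rw [← Finset.prod_pair (f := fun r : ℕ => r ^ N.factorization r) hne, Finset.inter_comm]
    refine Finset.prod_subset Finset.inter_subset_left fun r hr hr' => ?_
    have : r ∉ N.primeFactors := fun h => hr' (Finset.mem_inter.2 ⟨hr, h⟩)
    rw [← Nat.support_factorization, Finsupp.notMem_support_iff] at this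
    rw [this, pow_zero]
  rw [key p q hpq, key q p hpq.symm, Finset.pair_comm]

/-- Converse of Hall's theorem. -/
theorem solvable_of_pComplements {G : Type*} [Group G] [Finite G]
    (h : ∀ p : ℕ, p.Prime → ∃ H : Subgroup G, H.index = p ^ (Nat.card G).factorization p) :
    Group.IsSolvable G := by
  revert h
  induction hc : Nat.card G using Nat.strong_induction_on generalizing G with
  | _ c ih =>
    subst hc
    intro h
    set N := Nat.card G with hN
    have hN0 : N ≠ 0 := Nat.card_pos.ne'
    have hprod := Nat.prod_factorization_pow_eq_self hN0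
    by_cases hle : N.primeFactors.card ≤ 2
    · have : ∃ p q a b, p.Prime ∧ q.Prime ∧ N = p ^ a * q ^ b := by
        rcases Nat.lt_or_ge N.primeFactors.card 1 with h0 | h1
        · refine ⟨2, 2, 0, 0, Nat.prime_two, Nat.prime_two, ?_⟩
          have : N.primeFactors = ∅ := Finset.card_eq_zero.1 (by omega)
          rw [← hprod, Finsupp.prod, Nat.support_factorization, this]
          simp
        rcases Nat.lt_or_ge N.primeFactors.card 2 with h1' | h2
        · obtain ⟨p, hp⟩ := Finset.card_eq_one.1 (by omega : N.primeFactors.card = 1)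
          have hpp : p.Prime := Nat.prime_of_mem_primeFactors (hp ▸ Finset.mem_singleton_self p)
          refine ⟨p, p, N.factorization p, 0, hpp, hpp, ?_⟩
          conv_lhs => rw [← hprod, Finsupp.prod, Nat.support_factorization, hp, Finset.prod_singleton]
          simp
        · obtain ⟨p, q, hne, hpq⟩ := Finset.card_eq_two.1 (by omega : N.primeFactors.card = 2)
          refine ⟨p, q, N.factorization p, N.factorization q,
            Nat.prime_of_mem_primeFactors (hpq ▸ by simp : p ∈ N.primeFactors),
            Nat.prime_of_mem_primeFactors (hpq ▸ by simp : q ∈ N.primeFactors), ?_⟩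
          conv_lhs => rw [← hprod, Finsupp.prod, Nat.support_factorization, hpq, Finset.prod_pair hne]
      obtain ⟨p, q, a, b, hp, hq, hN'⟩ := this
      exact Cfsg.Agent.S0144.result p q a b hp hq hN'
    · obtain ⟨p, hpm, q, hqm, r, hrm, hpq, hpr, hqr⟩ := Finset.two_lt_card.1 (not_le.1 hle)
      have hsol : ∀ p, p ∈ N.primeFactors → ∀ H : Subgroup G,
          H.index = p ^ N.factorization p → Group.IsSolvable H := by
        intro p hpm H hH
        have hp := Nat.prime_of_mem_primeFactors hpm
        have hpos : 0 < N.factorization p := hp.factorization_pos_of_dvd hN0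
          (Nat.dvd_of_mem_primeFactors hpm)
        have hcard : Nat.card H * p ^ N.factorization p = N := hH ▸ H.card_mul_index
        have hlt : Nat.card H < N := by
          conv_rhs => rw [← hcard]
          exact lt_mul_right Nat.card_pos (Nat.one_lt_pow hpos.ne' hp.one_lt)
        have hfac : ∀ s, N.factorization s = (Nat.card H).factorization s +
            (p ^ N.factorization p).factorization s := fun s => by
          conv_lhs => rw [← hcard]
          rw [Nat.factorization_mul Nat.card_pos.ne' (pow_ne_zero _ hp.ne_zero)]; rfl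
        refine ih _ hlt rfl fun s hs => ?_
        obtain ⟨L, hL⟩ := h s hs
        rcases eq_or_ne s p with rfl | hne
        · refine ⟨⊤, ?_⟩
          have := hfac s
          rw [hp.factorization_pow, Finsupp.single_eq_same] at this
          rw [Subgroup.index_top, show (Nat.card H).factorization s = 0 by omega, pow_zero]
        · refine ⟨L.subgroupOf H, ?_⟩
          have := hfac s
          rw [hp.factorization_pow, Finsupp.single_eq_of_ne hne, add_zero] at this
          rw [← this]
          have hcop : H.index.Coprime L.index := by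
            rw [hH, hL]; exact Nat.Coprime.pow _ _ ((Nat.coprime_primes hp hs).2 hne.symm)
          have h2 := Subgroup.relIndex_mul_index (inf_le_left : H ⊓ L ≤ H)
          rw [Subgroup.inf_relIndex_left, (index_inf_of_coprime hcop).1, mul_comm H.index] at h2
          rw [← hL]
          exact Nat.eq_of_mul_eq_mul_right (Nat.pos_of_ne_zero Subgroup.index_ne_zero_of_finite) h2
      obtain ⟨A, hA⟩ := h p (Nat.prime_of_mem_primeFactors hpm)
      obtain ⟨B, hB⟩ := h q (Nat.prime_of_mem_primeFactors hqm)
      obtain ⟨C, hC⟩ := h r (Nat.prime_of_mem_primeFactors hrm)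
      have hcop : ∀ (x y : ℕ), x ∈ N.primeFactors → y ∈ N.primeFactors → x ≠ y →
          ∀ (X Y : Subgroup G), X.index = x ^ N.factorization x → Y.index = y ^ N.factorization y →
            X.index.Coprime Y.index := fun x y hx hy hxy X Y hX hY => by
        rw [hX, hY]
        exact Nat.Coprime.pow _ _ ((Nat.coprime_primes (Nat.prime_of_mem_primeFactors hx)
          (Nat.prime_of_mem_primeFactors hy)).2 hxy)
      exact solvable_of_three A B C (hsol p hpm A hA) (hsol q hqm B hB) (hsol r hrm C hC)
        (index_inf_of_coprime (hcop p q hpm hqm hpq A B hA hB)).2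
        (index_inf_of_coprime (hcop p r hpm hrm hpr A C hA hC)).2
        (hcop q r hqm hrm hqr B C hB hC)

/-- A group with a Sylow system is solvable. -/
theorem solvable_of_sylow_system_aux [Finite G] (S : (p : Nat.Primes) → Sylow (p : ℕ) G)
    (hS : ∀ p q : Nat.Primes, (S p : Set G) * (S q : Set G) = (S q : Set G) * (S p : Set G)) :
    Group.IsSolvable G := by
  classical
  set N := Nat.card G with hN
  refine solvable_of_pComplements fun p hp => ?_
  have key : ∀ s : Finset Nat.Primes, ∃ L : Subgroup G,
      (∀ r : Nat.Primes, (S r : Set G) * (L : Set G) = (L : Set G) * (S r : Set G)) ∧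
      Nat.card L = ∏ r ∈ s, (r : ℕ) ^ N.factorization r := by
    intro s
    induction s using Finset.induction_on with
    | empty => exact ⟨⊥, fun r => by simp, by simp⟩
    | @insert a t ha ih =>
      obtain ⟨L, hL, hLc⟩ := ih
      have hco : ((S a : Subgroup G) ⊔ L : Subgroup G) = ((S a : Set G) * (L : Set G) : Set G) :=
        coe_sup_of_commute _ _ (hL a)
      refine ⟨(S a : Subgroup G) ⊔ L, fun r => ?_, ?_⟩
      · rw [hco, ← mul_assoc, hS r a, mul_assoc, hL r, mul_assoc]
      · have : Fact (a : ℕ).Prime := ⟨a.2⟩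
        have hSa : Nat.card (S a : Subgroup G) = (a : ℕ) ^ N.factorization a := (S a).card_eq_multiplicity
        have hdis : Disjoint (S a : Subgroup G) L := by
          refine Subgroup.disjoint_of_coprime_natCard ?_
          rw [hSa, hLc]
          refine Nat.Coprime.prod_right fun r hr => Nat.Coprime.pow _ _ ?_
          exact (Nat.coprime_primes a.2 r.2).2 fun h => ha (Subtype.ext h ▸ hr)
        have : Nat.card ((S a : Set G) * (L : Set G) : Set G) =
            Nat.card (S a : Subgroup G) * Nat.card L := card_mul_of_disjoint _ _ hdis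
        rw [← hco] at this
        rw [Finset.prod_insert ha, ← hSa, ← hLc]
        exact this
  let t : Finset Nat.Primes := (N.primeFactors.erase p).subtype Nat.Prime
  obtain ⟨L, -, hLc⟩ := key t
  refine ⟨L, ?_⟩
  have h1 : Nat.card L = ∏ r ∈ N.primeFactors.erase p, r ^ N.factorization r := by
    rw [hLc]
    exact Finset.prod_subtype_of_mem (fun r => r ^ N.factorization r)
      (fun r hr => Nat.prime_of_mem_primeFactors (Finset.mem_of_mem_erase hr))
  refine Nat.eq_of_mul_eq_mul_left (Nat.card_pos (α := L)) ?_
  rw [L.card_mul_index, ← hN, h1]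
  conv_lhs => rw [← Nat.prod_factorization_pow_eq_self (show N ≠ 0 from Nat.card_pos.ne'),
    Finsupp.prod, Nat.support_factorization]
  by_cases hpm : p ∈ N.primeFactors
  · rw [mul_comm (∏ r ∈ N.primeFactors.erase p, r ^ N.factorization r)]
    exact (Finset.mul_prod_erase _ (fun r => r ^ N.factorization r) hpm).symm
  · have : N.factorization p = 0 := by
      rw [← Nat.support_factorization, Finsupp.notMem_support_iff] at hpm; exact hpm
    rw [Finset.erase_eq_of_notMem hpm, this, pow_zero, mul_one]

end Cfsg.Agent.H19
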