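import Mathlib
import Cfsg.Agent.H19.VanishingBound

/-!
# Vanishing `p`-singular elements of one order (solvable groups)

If all vanishing elements of order divisible by `p` of a solvable group have the same order, the
Sylow `p`-subgroup of `G / O_p(G)` has order at most `p`.
-/

set_option autoImplicit false

open scoped IsMulCommutative

namespace Cfsg.Agent.H19

universe u

/-- Vanishing `p`-singular elements are `p`-elements and none is the `p`th power of another. -/
def FlatVanishing (p : ℕ) (G : Type u) [Group G] : Prop :=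
  (∀ x : G, Vanishes x → p ∣ orderOf x → ∃ k, orderOf x = p ^ k) ∧
    ∀ x : G, Vanishes x → p ∣ orderOf x → x ^ p ≠ 1 → ¬ Vanishes (x ^ p)

variable {G : Type u} [Group G] [Finite G] {p : ℕ} [hp : Fact p.Prime]

theorem dvd_orderOf_of_pow {g : G} {k : ℕ} (hg : g ≠ 1) (h : orderOf g = p ^ k) : p ∣ orderOf g := by
  rcases k with _ | k
  · rw [pow_zero, orderOf_eq_one_iff] at h
    exact absurd h hg
  · exact h ▸ dvd_pow_self p k.succ_ne_zero

theorem FlatVanishing.quotient (h : FlatVanishing p G) (N : Subgroup G) [N.Normal] :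
    FlatVanishing p (G ⧸ N) := by
  have h1 : ∀ x : G ⧸ N, Vanishes x → p ∣ orderOf x → ∃ k, orderOf x = p ^ k := by
    intro x hx hxp
    obtain ⟨x, rfl⟩ := QuotientGroup.mk'_surjective N x
    obtain ⟨k, hk⟩ := h.1 x hx.of_mk (hxp.trans (orderOf_map_dvd _ x))
    obtain ⟨j, -, hj⟩ := (Nat.dvd_prime_pow hp.out).1 (hk ▸ orderOf_map_dvd (QuotientGroup.mk' N) x)
    exact ⟨j, hj⟩
  refine ⟨h1, fun x hx hxp hne hv => ?_⟩
  obtain ⟨k, hk⟩ := h1 x hx hxp
  obtain ⟨y, rfl, j, hj⟩ := exists_pElement_preimage N x hk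
  refine h.2 y hx.of_mk (hxp.trans (orderOf_map_dvd _ y)) (fun he => hne ?_) (Vanishes.of_mk (N := N) ?_)
  · rw [← map_pow, he, map_one]
  · rwa [map_pow]

/-- A `p`-subgroup of a quotient by a `p'`-group lifts isomorphically. -/
theorem exists_pSubgroup_lift (M : Subgroup G) [M.Normal] (hM : ¬ p ∣ Nat.card M)
    (D : Subgroup (G ⧸ M)) (hD : IsPGroup p D) :
    ∃ Z : Subgroup G, IsPGroup p Z ∧ Z.map (QuotientGroup.mk' M) = D ∧ Nat.card Z = Nat.card D ∧
      ∀ z ∈ Z, z ∈ M → z = 1 := by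
  set q := QuotientGroup.mk' M with hq
  set A := D.comap q with hA
  obtain ⟨Zs⟩ := (inferInstance : Nonempty (Sylow p ↥A))
  set Z : Subgroup G := (Zs : Subgroup ↥A).map A.subtype with hZ
  have hZp : IsPGroup p Z := Zs.2.map _
  have hdisj : ∀ z ∈ Z, z ∈ M → z = 1 := fun z hz hzM => by
    have hcop : (Nat.card M).Coprime (Nat.card Z) := by
      obtain ⟨k, hk⟩ := IsPGroup.iff_card.1 hZp
      rw [hk]
      exact (((Nat.Prime.coprime_iff_not_dvd hp.out).2 hM).symm).pow_right k
    have : z ∈ M ⊓ Z := ⟨hzM, hz⟩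
    rwa [Subgroup.inf_eq_bot_of_coprime hcop, Subgroup.mem_bot] at this
  have hcard : Nat.card Z = Nat.card D := by
    rw [hZ, Subgroup.card_map_of_injective A.subtype_injective, Zs.card_eq_multiplicity, hA, hq,
      card_comap_mk, Nat.factorization_mul Nat.card_pos.ne' Nat.card_pos.ne', Finsupp.add_apply,
      Nat.factorization_eq_zero_of_not_dvd hM, add_zero]
    obtain ⟨k, hk⟩ := IsPGroup.iff_card.1 hD
    rw [hk, Nat.Prime.factorization_pow hp.out, Finsupp.single_eq_same]
  refine ⟨Z, hZp, Subgroup.eq_of_le_of_card_ge ?_ ?_, hcard, hdisj⟩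
  · rintro _ ⟨_, ⟨a, -, rfl⟩, rfl⟩
    exact a.2
  · refine le_of_eq (hcard.symm.trans (Nat.card_congr (Equiv.ofBijective
      (fun z : Z => (⟨q z, z, z.2, rfl⟩ : Z.map q)) ⟨fun a b hab => ?_, ?_⟩)))
    · exact Subtype.ext (inv_mul_eq_one.1 (hdisj _ (Z.mul_mem (Z.inv_mem a.2) b.2)
        (QuotientGroup.eq.1 (congrArg Subtype.val hab))))
    · rintro ⟨_, z, hz, rfl⟩
      exact ⟨⟨z, hz⟩, rfl⟩

/-- An elementary abelian section above `M` all of whose elements are vanishing is cyclic. -/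
theorem card_le_of_all_vanish (hflat : FlatVanishing p G) (M : Subgroup G) [M.Normal]
    [IsMulCommutative M] [Nontrivial M] (hM : ¬ p ∣ Nat.card M) (D : Subgroup (G ⧸ M))
    [IsMulCommutative D] (hD : IsPGroup p D) (hpow : ∀ d ∈ D, d ^ p = 1)
    (hvan : ∀ x : G, QuotientGroup.mk' M x ∈ D → x ∉ M → Vanishes x) : Nat.card D ≤ p := by
  obtain ⟨Z, hZp, hmap, hcard, hdisj⟩ := exists_pSubgroup_lift M hM D hD
  set q := QuotientGroup.mk' M with hq
  have hZD : ∀ z ∈ Z, q z ∈ D := fun z hz => hmap ▸ Subgroup.mem_map_of_mem q hz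
  haveI : IsMulCommutative Z := ⟨⟨fun a b => by
    have h1 : q ((a : G) * b * (a : G)⁻¹ * (b : G)⁻¹) = 1 := by
      have h := congrArg Subtype.val (mul_comm (⟨_, hZD a a.2⟩ : D) ⟨_, hZD b b.2⟩)
      simp only [Subgroup.coe_mul] at h
      simp only [map_mul, map_inv]
      rw [h]; group
    have h2 := hdisj _ (Z.mul_mem (Z.mul_mem (Z.mul_mem a.2 b.2) (Z.inv_mem a.2)) (Z.inv_mem b.2))
      ((QuotientGroup.eq_one_iff _).1 h1)
    exact Subtype.ext (mul_inv_eq_iff_eq_mul.1 (mul_inv_eq_one.1 h2))⟩⟩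
  let ψ : Z →* MulAut ↥M := (MulAut.conjNormal (H := M)).comp Z.subtype
  have hfpf : ∀ e : Z, e ≠ 1 → ∀ m : M, ψ e m = m → m = 1 := by
    rintro ⟨z, hz⟩ he m hm
    have hz1 : z ≠ 1 := fun h => he (Subtype.ext h)
    have hcm : z * (m : G) = m * z := by
      have h := congrArg Subtype.val hm
      simp only [ψ, MonoidHom.coe_comp, Function.comp_apply, Subgroup.coe_subtype,
        MulAut.conjNormal_apply] at h
      exact mul_inv_eq_iff_eq_mul.1 h
    have hzM' : z ∉ M := fun h => hz1 (hdisj z hz h)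
    have hzmM : z * (m : G) ∉ M := fun h => hzM' (by simpa using M.mul_mem h (M.inv_mem m.2))
    have hmk : q (z * (m : G)) ∈ D := by
      rw [map_mul, hq, QuotientGroup.mk'_apply M (m : G), (QuotientGroup.eq_one_iff _).2 m.2,
        mul_one]
      exact hZD z hz
    obtain ⟨k, hk⟩ := IsPGroup.iff_orderOf.1 hZp ⟨z, hz⟩
    rw [← Subgroup.orderOf_coe, Subtype.coe_mk] at hk
    have hmp : ¬ p ∣ orderOf (m : G) := fun hd => hM (by
      rw [Subgroup.orderOf_coe] at hd
      exact hd.trans (orderOf_dvd_natCard m))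
    have hcop : (orderOf z).Coprime (orderOf (m : G)) := by
      rw [hk]
      exact Nat.Coprime.pow_left k ((Nat.Prime.coprime_iff_not_dvd hp.out).2 hmp)
    have hmul := Commute.orderOf_mul_eq_mul_orderOf_of_coprime hcm hcop
    obtain ⟨j, hj⟩ := hflat.1 _ (hvan _ hmk hzmM) (hmul ▸ (dvd_orderOf_of_pow hz1 hk).mul_right _)
    rw [hmul] at hj
    refine Subtype.ext (orderOf_eq_one_iff.1 ?_)
    rcases (Nat.dvd_prime_pow hp.out).1 (Dvd.intro_left _ hj : orderOf (m : G) ∣ p ^ j) with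
      ⟨_ | i, -, hi⟩
    · rw [hi, pow_zero]
    · exact absurd (hi ▸ dvd_pow_self p i.succ_ne_zero) hmp
  haveI : IsCyclic Z := H21.isCyclic_of_fpf_abelian ψ hfpf (Or.inl inferInstance)
  obtain ⟨g, hg⟩ := IsCyclic.exists_generator (α := Z)
  have hgp : g ^ p = 1 := by
    have h1 : q ((g : G) ^ p) = 1 := by rw [map_pow]; exact hpow _ (hZD g g.2)
    exact Subtype.ext (hdisj _ (Z.pow_mem g.2 p) ((QuotientGroup.eq_one_iff _).1 h1))
  rw [← hcard, ← Subgroup.card_top, ← eq_top_iff.2 fun x _ => hg x, Nat.card_zpowers]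
  exact Nat.le_of_dvd hp.out.pos (orderOf_dvd_of_pow_eq_one hgp)

/-- A vanishing element of order `p`, together with its nontrivial powers. -/
theorem exists_vanishing_order_p [Group.IsSolvable G] (hcore : Cfsg.pCore p G = ⊥)
    (hdvd : p ∣ Nat.card G) : ∃ x : G, orderOf x = p ∧ ∀ i : ℕ, ¬ p ∣ i → Vanishes (x ^ i) := by
  induction hn : Nat.card G using Nat.strong_induction_on generalizing G with
  | _ n ih =>
  subst hn
  haveI : Nontrivial G := Finite.one_lt_card_iff_nontrivial.1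
    (lt_of_lt_of_le hp.out.one_lt (Nat.le_of_dvd Nat.card_pos hdvd))
  obtain ⟨M, hMn, hM0, hMc, hMp⟩ := exists_minimal_pPrime hcore
  have hlift : ∀ y : G ⧸ M, orderOf y = p → ∃ x : G, QuotientGroup.mk' M x = y ∧ orderOf x = p := by
    intro y hy
    obtain ⟨Z, hZp, hmap, hcard, -⟩ := exists_pSubgroup_lift M hMp (Subgroup.zpowers y)
      (IsPGroup.of_card (n := 1) (by rw [Nat.card_zpowers, hy, pow_one]))
    obtain ⟨x, hx, hxy⟩ := (hmap ▸ Subgroup.mem_zpowers y : y ∈ Z.map (QuotientGroup.mk' M))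
    refine ⟨x, hxy, orderOf_eq_prime ?_ fun h => ?_⟩
    · rw [← hy, ← Nat.card_zpowers, ← hcard]
      exact congrArg Subtype.val (pow_card_eq_one' (x := (⟨x, hx⟩ : Z)))
    · rw [h, map_one] at hxy
      rw [← hxy, orderOf_one] at hy
      exact hp.out.one_lt.ne hy
  by_cases hQ : Cfsg.pCore p (G ⧸ M) = ⊥
  · have hd : p ∣ Nat.card (G ⧸ M) := by
      rw [M.card_eq_card_quotient_mul_card_subgroup] at hdvd
      exact (hp.out.dvd_mul.1 hdvd).resolve_right hMp
    obtain ⟨y, hy, hyv⟩ := ih _ (card_quotient_lt M hM0) hQ hd rfl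
    obtain ⟨x, hxy, hx⟩ := hlift y hy
    exact ⟨x, hx, fun i hi => Vanishes.of_mk (N := M) (by rw [map_pow, hxy]; exact hyv i hi)⟩
  · obtain ⟨B, hBn, hB0, hBc, hBp, hBpow⟩ := exists_abelian_le_pCore hQ
    obtain ⟨b, hb⟩ := B.ne_bot_iff_exists_ne_one.1 hB0
    obtain ⟨x, hxb, hx⟩ := hlift (b : G ⧸ M) (orderOf_eq_prime (hBpow _ b.2)
      fun h => hb (Subtype.ext h))
    refine ⟨x, hx, fun i hi => vanishes_above hcore M hMp B hBp _ ?_ fun h => hi ?_⟩
    · rw [map_pow, hxb]
      exact B.pow_mem b.2 i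
    · have h1 : (b : G ⧸ M) ^ i = 1 := by
        rw [← hxb, ← map_pow, QuotientGroup.mk'_apply]
        exact (QuotientGroup.eq_one_iff _).2 h
      rw [← orderOf_eq_prime (p := p) (hBpow _ b.2) fun h => hb (Subtype.ext h)]
      exact orderOf_dvd_of_pow_eq_one h1

/-- With trivial `p`-core and flat vanishing, `p²` does not divide the order. -/
theorem factorization_le_one_of_flatVanishing [Group.IsSolvable G] (hcore : Cfsg.pCore p G = ⊥)
    (hflat : FlatVanishing p G) : (Nat.card G).factorization p ≤ 1 := by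
  induction hn : Nat.card G using Nat.strong_induction_on generalizing G with
  | _ n ih =>
  subst hn
  by_cases hdvd : p ∣ Nat.card G
  swap
  · rw [Nat.factorization_eq_zero_of_not_dvd hdvd]; exact zero_le_one
  haveI : Nontrivial G := Finite.one_lt_card_iff_nontrivial.1
    (lt_of_lt_of_le hp.out.one_lt (Nat.le_of_dvd Nat.card_pos hdvd))
  obtain ⟨M, hMn, hM0, hMc, hMp⟩ := exists_minimal_pPrime hcore
  rw [factorization_quotient M hMp]
  by_cases hQ : Cfsg.pCore p (G ⧸ M) = ⊥
  · exact ih _ (card_quotient_lt M hM0) hQ (hflat.quotient M) rfl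
  haveI : Nontrivial ↥M := M.nontrivial_iff_ne_bot.2 hM0
  haveI := pCore_normal p (G ⧸ M)
  set Q := Cfsg.pCore p (G ⧸ M) with hQdef
  have hQp : IsPGroup p Q := pCore_isPGroup p
  have hnotM : ∀ {x : G} {c : G ⧸ M}, QuotientGroup.mk' M x = c → c ≠ 1 → x ∉ M := by
    intro x c hx hc h
    exact hc (hx ▸ (QuotientGroup.eq_one_iff x).2 h)
  -- no vanishing element above a nontrivial `p`th power inside an abelian normal section
  have hnopow : ∀ (C : Subgroup (G ⧸ M)) [C.Normal] [IsMulCommutative C], IsPGroup p C →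
      ∀ k : G ⧸ M, (∀ x, QuotientGroup.mk' M x = k → Vanishes x) → (∃ j, orderOf k = p ^ j) →
        k ^ p ∈ C → k ^ p = 1 := by
    intro C _ _ hC k hk ⟨j, hj⟩ hkC
    by_contra hne
    obtain ⟨x, hx, i, hi⟩ := exists_pElement_preimage M k hj
    have hk1 : k ≠ 1 := fun h => hne (by rw [h, one_pow])
    have hxp : QuotientGroup.mk' M (x ^ p) = k ^ p := by rw [map_pow, hx]
    exact hflat.2 x (hk x hx) (dvd_orderOf_of_pow (fun h => hnotM hx hk1 (h ▸ one_mem M)) hi)
      (fun h => hnotM hxp hne (h ▸ one_mem M))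
      (vanishes_above hcore M hMp C hC _ (hxp ▸ hkC) (hnotM hxp hne))
  -- normal abelian p-subgroups of the quotient have order at most p
  have hsmall : ∀ (C : Subgroup (G ⧸ M)) [C.Normal] [IsMulCommutative C], IsPGroup p C →
      Nat.card C ≤ p := by
    intro C _ _ hC
    refine card_le_of_all_vanish hflat M hMp C hC (fun c hc => ?_)
      (fun x hx hxM => vanishes_above hcore M hMp C hC x hx hxM)
    obtain ⟨j, hj⟩ := IsPGroup.iff_orderOf.1 hC ⟨c, hc⟩
    rw [← Subgroup.orderOf_coe, Subtype.coe_mk] at hj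
    by_cases hc1 : c = 1
    · rw [hc1, one_pow]
    exact hnopow C hC c (fun x hx => vanishes_above hcore M hMp C hC x (hx ▸ hc) (hnotM hx hc1))
      ⟨j, hj⟩ (C.pow_mem hc p)
  haveI : Nontrivial Q := Q.nontrivial_iff_ne_bot.2 hQ
  set B : Subgroup (G ⧸ M) := (Subgroup.center ↥Q).map Q.subtype with hB
  haveI hBn : B.Normal := ConjAct.normal_of_characteristic_of_normal
  haveI hBc : IsMulCommutative B := ⟨⟨by
    rintro ⟨_, a, ha, rfl⟩ ⟨_, b, hb, rfl⟩
    exact Subtype.ext (congrArg (fun w : ↥Q => (w : G ⧸ M)) ((Subgroup.mem_center_iff.1 hb) a))⟩⟩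
  have hBp : IsPGroup p B := hQp.to_le (Subgroup.map_subtype_le _)
  have hB0 : B ≠ ⊥ := fun h => (Subgroup.nontrivial_iff_ne_bot _).1 hQp.center_nontrivial
    ((Subgroup.map_eq_bot_iff_of_injective _ Q.subtype_injective).1 h)
  have hBcard : Nat.card B = p := by
    obtain ⟨j, hj⟩ := IsPGroup.iff_card.1 hBp
    have h1 := hsmall B hBp
    have h2 : j ≠ 0 := fun h => hB0 (Subgroup.card_eq_one.1 (by rw [hj, h, pow_zero]))
    refine le_antisymm h1 (hj ▸ ?_)
    exact Nat.le_self_pow h2 p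
  -- an elementary abelian subgroup of order p² with vanishing preimages is impossible
  have hkey : ∀ y : G ⧸ M, y ∉ B → (∀ b ∈ B, y * b = b * y) → y ^ p ∈ B →
      (∃ j, orderOf y = p ^ j) →
      (∀ i : ℕ, ¬ p ∣ i → ∀ b ∈ B, ∀ x, QuotientGroup.mk' M x = b * y ^ i → Vanishes x) → False := by
    intro y hyB hcomm hyp hyj hv
    have hy1 : y ^ p = 1 := hnopow B hBp y (fun x hx => hv 1 hp.out.not_dvd_one 1 (one_mem B) x
      (by rw [hx, one_mul, pow_one])) hyj hyp
    set D : Subgroup (G ⧸ M) := B ⊔ Subgroup.zpowers y with hD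
    have hmem : ∀ d ∈ D, ∃ b ∈ B, ∃ i : ℕ, d = b * y ^ i := by
      intro d hd
      obtain ⟨b, hb, w, hw, rfl⟩ := Subgroup.mem_sup_of_normal_left.1 hd
      obtain ⟨i, rfl⟩ := (isOfFinOrder_of_finite y).mem_powers_iff_mem_zpowers.2 hw
      exact ⟨b, hb, i, rfl⟩
    have hbpow : ∀ b ∈ B, b ^ p = 1 := fun b hb => by
      have h := pow_card_eq_one' (x := (⟨b, hb⟩ : B))
      rw [hBcard] at h
      exact congrArg Subtype.val h
    have hcc : ∀ b ∈ B, ∀ i : ℕ, Commute b (y ^ i) := fun b hb i =>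
      Commute.pow_right (hcomm b hb).symm i
    haveI : IsMulCommutative D := ⟨⟨fun a c => by
      obtain ⟨b, hb, i, ha⟩ := hmem a a.2
      obtain ⟨b', hb', i', hc⟩ := hmem c c.2
      refine Subtype.ext ?_
      have hbb : Commute b b' := congrArg Subtype.val (mul_comm (⟨b, hb⟩ : B) ⟨b', hb'⟩)
      show (a : G ⧸ M) * c = c * a
      rw [ha, hc]
      exact (((hbb.mul_right (hcc b hb i')).mul_left
        (((hcc b' hb' i).symm).mul_right (Commute.pow_pow (Commute.refl y) i i'))) :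
        Commute (b * y ^ i) (b' * y ^ i')).eq⟩⟩
    have hDpow : ∀ d ∈ D, d ^ p = 1 := by
      intro d hd
      obtain ⟨b, hb, i, rfl⟩ := hmem d hd
      rw [(hcc b hb i).mul_pow, hbpow b hb, ← pow_mul, mul_comm i p, pow_mul, hy1, one_pow, one_mul]
    have hDp : IsPGroup p D := fun d => ⟨1, Subtype.ext (by
      rw [Subgroup.coe_pow, pow_one]; exact hDpow d d.2)⟩
    have h2 : Nat.card D ≤ p := card_le_of_all_vanish hflat M hMp D hDp hDpow fun x hx hxM => by
      obtain ⟨b, hb, i, hbi⟩ := hmem _ hx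
      by_cases hi : p ∣ i
      · obtain ⟨c, rfl⟩ := hi
        rw [pow_mul, hy1, one_pow, mul_one] at hbi
        exact vanishes_above hcore M hMp B hBp x (hbi ▸ hb) hxM
      · exact hv i hi b hb x hbi
    have hlt : B < D := lt_of_le_of_ne le_sup_left fun h =>
      hyB (h ▸ Subgroup.mem_sup_right (Subgroup.mem_zpowers y))
    have := Set.Finite.card_lt_card (Set.toFinite (D : Set (G ⧸ M))) hlt
    change Nat.card B < Nat.card D at this
    omega
  -- the p-core of the quotient is B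
  have hQB : Q = B := by
    by_contra hne
    set Zc := Subgroup.center ↥Q with hZc
    haveI : Nontrivial (↥Q ⧸ Zc) := by
      refine QuotientGroup.nontrivial_iff.2 fun h => hne ?_
      rw [hB, h, ← MonoidHom.range_eq_map, Subgroup.range_subtype]
    obtain ⟨⟨yb, hyb⟩, hyb1⟩ := Subgroup.ne_bot_iff_exists_ne_one.1
      ((Subgroup.nontrivial_iff_ne_bot _).1 (hQp.to_quotient Zc).center_nontrivial)
    obtain ⟨y, rfl⟩ := QuotientGroup.mk'_surjective Zc yb
    have hyZ : y ∉ Zc := fun h => hyb1 (Subtype.ext ((QuotientGroup.eq_one_iff y).2 h))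
    have hBmem : ∀ {w : ↥Q}, (w : G ⧸ M) ∈ B → w ∈ Zc := by
      rintro w ⟨a, ha, hae⟩
      exact (Subtype.ext hae : a = w) ▸ ha
    have hcom : ∀ q : ↥Q, y⁻¹ * (q * y * q⁻¹) ∈ Zc := fun q => by
      refine (QuotientGroup.eq_one_iff _).1 ?_
      have h := Subgroup.mem_center_iff.1 hyb (QuotientGroup.mk' Zc q)
      show QuotientGroup.mk' Zc (y⁻¹ * (q * y * q⁻¹)) = 1
      simp only [map_mul, map_inv, h]
      group
    -- `y ^ p` is central
    have hypZ : y ^ p ∈ Zc := Subgroup.mem_center_iff.2 fun q => by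
      have hz : (y⁻¹ * (q * y * q⁻¹)) ^ p = 1 := by
        have h := pow_card_eq_one' (x := (⟨_, hcom q⟩ : Zc))
        rw [show Nat.card Zc = p by
          rw [← hBcard, hB, Subgroup.card_map_of_injective Q.subtype_injective]] at h
        exact congrArg Subtype.val h
      have hcy : Commute y (y⁻¹ * (q * y * q⁻¹)) := Subgroup.mem_center_iff.1 (hcom q) y
      have h2 : q * y ^ p * q⁻¹ = y ^ p := by
        rw [← conj_pow, show q * y * q⁻¹ = y * (y⁻¹ * (q * y * q⁻¹)) by group, hcy.mul_pow, hz,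
          mul_one]
      exact mul_inv_eq_iff_eq_mul.1 h2
    refine hkey (y : G ⧸ M) (fun h => hyZ (hBmem h)) ?_ ⟨y ^ p, hypZ, by simp⟩ ?_ ?_
    · rintro b ⟨a, ha, rfl⟩
      exact congrArg (fun w : ↥Q => (w : G ⧸ M)) (Subgroup.mem_center_iff.1 ha y)
    · obtain ⟨j, hj⟩ := IsPGroup.iff_orderOf.1 hQp y
      exact ⟨j, by rw [Subgroup.orderOf_coe]; exact hj⟩
    · intro i hi b hb x hx
      obtain ⟨c, hc, rfl⟩ := hb
      set w : ↥Q := c * y ^ i with hw
      have hwZ : w ∉ Zc := fun h => hyZ (by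
        have h1 : y ^ i ∈ Zc := by simpa [hw] using Zc.mul_mem (Zc.inv_mem hc) h
        obtain ⟨u, v, huv⟩ : ∃ u v : ℤ, u * i + v * p = 1 := by
          have hcop : IsCoprime (i : ℤ) (p : ℤ) := Int.isCoprime_iff_gcd_eq_one.2 (by
            simpa [Int.gcd_natCast_natCast] using
              Nat.Coprime.symm ((Nat.Prime.coprime_iff_not_dvd hp.out).2 hi))
          obtain ⟨u, v, huv⟩ := hcop
          exact ⟨u, v, huv⟩
        have h3 : y = (y ^ i) ^ u * (y ^ p) ^ v := by
          rw [← zpow_natCast y i, ← zpow_natCast y p, ← zpow_mul, ← zpow_mul, ← zpow_add,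
            mul_comm (i : ℤ), mul_comm (p : ℤ), huv, zpow_one]
        rw [h3]
        exact Zc.mul_mem (Zc.zpow_mem h1 u) (Zc.zpow_mem hypZ v))
      obtain ⟨q, hq⟩ : ∃ q : ↥Q, q * w ≠ w * q := by
        by_contra hno
        exact hwZ (Subgroup.mem_center_iff.2 fun q => not_not.1 fun h => hno ⟨q, h⟩)
      have hwc : w⁻¹ * (q * w * q⁻¹) ∈ Zc := by
        refine (QuotientGroup.eq_one_iff _).1 ?_
        have h := Subgroup.mem_center_iff.1 hyb (QuotientGroup.mk' Zc q)
        have hcom2 : Commute (QuotientGroup.mk' Zc q) (QuotientGroup.mk' Zc w) := by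
          rw [hw, map_mul, map_pow, show QuotientGroup.mk' Zc c = 1 from
            (QuotientGroup.eq_one_iff c).2 hc, one_mul]
          exact Commute.pow_right h i
        show QuotientGroup.mk' Zc (w⁻¹ * (q * w * q⁻¹)) = 1
        simp only [map_mul, map_inv, hcom2.eq]
        group
      set z : ↥Q := w⁻¹ * (q * w * q⁻¹) with hz
      have hz1 : z ≠ 1 := fun h => hq (mul_inv_eq_iff_eq_mul.1 (inv_mul_eq_one.1 h).symm)
      have hzB : (z : G ⧸ M) ∈ B := ⟨z, hwc, rfl⟩
      have hzeq : Subgroup.zpowers (z : G ⧸ M) = B := by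
        refine Subgroup.eq_of_le_of_card_ge (Subgroup.zpowers_le.2 hzB) ?_
        rw [hBcard, Nat.card_zpowers]
        rcases (Nat.dvd_prime hp.out).1
          ((Subgroup.orderOf_dvd_natCard B hzB).trans hBcard.dvd) with h | h
        · exact absurd (Subtype.ext (orderOf_eq_one_iff.1 h)) hz1
        · exact h.ge
      haveI : (Subgroup.zpowers (z : G ⧸ M)).Normal := hzeq ▸ hBn
      refine Vanishes.of_mk (N := M) ?_
      rw [hx, show (Q.subtype c) * (y : G ⧸ M) ^ i = (w : G ⧸ M) by simp [hw]]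
      refine vanishes_of_conj_eq_mul (q := (q : G ⧸ M)) (z := (z : G ⧸ M))
        (fun h => hz1 (Subtype.ext h))
        (congrArg (fun t : ↥Q => (t : G ⧸ M)) (Subgroup.mem_center_iff.1 hwc q)) ?_
      simp [hz]
  -- the quotient by B has order prime to p
  by_cases hR : p ∣ Nat.card ((G ⧸ M) ⧸ B)
  swap
  · rw [B.card_eq_card_quotient_mul_card_subgroup,
      Nat.factorization_mul Nat.card_pos.ne' Nat.card_pos.ne', Finsupp.add_apply, hBcard,
      hp.out.factorization_self, Nat.factorization_eq_zero_of_not_dvd hR]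
  exfalso
  have hRcore : Cfsg.pCore p ((G ⧸ M) ⧸ B) = ⊥ := by
    haveI := pCore_normal p ((G ⧸ M) ⧸ B)
    have hle : (Cfsg.pCore p ((G ⧸ M) ⧸ B)).comap (QuotientGroup.mk' B) ≤ B := by
      conv_rhs => rw [← hQB]
      exact le_pCore inferInstance ((pCore_isPGroup p).comap_of_ker_isPGroup _ (by
        rw [QuotientGroup.ker_mk']; exact hBp))
    rw [eq_bot_iff]
    intro r hr
    obtain ⟨y, rfl⟩ := QuotientGroup.mk'_surjective B r
    rw [Subgroup.mem_bot, QuotientGroup.mk'_apply, QuotientGroup.eq_one_iff]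
    exact hle hr
  obtain ⟨r, hr, hrv⟩ := exists_vanishing_order_p hRcore hR
  obtain ⟨y, hyr, j, hj⟩ := exists_pElement_preimage B r (k := 1) (by rw [hr, pow_one])
  have hyB : y ∉ B := fun h => by
    rw [← hyr, show QuotientGroup.mk' B y = 1 from (QuotientGroup.eq_one_iff y).2 h, orderOf_one] at hr
    exact hp.out.one_lt.ne hr
  have hypB : y ^ p ∈ B := by
    refine (QuotientGroup.eq_one_iff _).1 ?_
    show QuotientGroup.mk' B (y ^ p) = 1
    rw [map_pow, hyr, ← hr, pow_orderOf_eq_one]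
  refine hkey y hyB (fun b hb => ?_) hypB ⟨j, hj⟩ fun i hi b hb x hx =>
    Vanishes.of_mk (N := M) (Vanishes.of_mk (N := B) ?_)
  · -- `y` centralizes the normal subgroup of order `p`
    by_cases hb1 : b = 1
    · rw [hb1, mul_one, one_mul]
    have hgen : Subgroup.zpowers b = B := by
      refine Subgroup.eq_of_le_of_card_ge (Subgroup.zpowers_le.2 hb) ?_
      rw [hBcard, Nat.card_zpowers]
      rcases (Nat.dvd_prime hp.out).1 ((Subgroup.orderOf_dvd_natCard B hb).trans hBcard.dvd) with h | h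
      · exact absurd (orderOf_eq_one_iff.1 h) hb1
      · exact h.ge
    obtain ⟨a, ha⟩ : ∃ a : ℕ, b ^ a = y * b * y⁻¹ := by
      obtain ⟨a, ha⟩ := (isOfFinOrder_of_finite b).mem_powers_iff_mem_zpowers.2
        (hgen.symm ▸ hBn.conj_mem b hb y : y * b * y⁻¹ ∈ Subgroup.zpowers b)
      exact ⟨a, ha⟩
    have hiter : ∀ i : ℕ, y ^ i * b * (y ^ i)⁻¹ = b ^ a ^ i := by
      intro i
      induction i with
      | zero => simp
      | succ i ih =>
        calc y ^ (i + 1) * b * (y ^ (i + 1))⁻¹ = y * (y ^ i * b * (y ^ i)⁻¹) * y⁻¹ := by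
              rw [pow_succ']; group
          _ = (y * b * y⁻¹) ^ a ^ i := by rw [ih, conj_pow]
          _ = b ^ a ^ (i + 1) := by rw [← ha, ← pow_mul, pow_succ']
    have hfix : b ^ a ^ p = b := by
      rw [← hiter p]
      have h := congrArg Subtype.val (mul_comm (⟨_, hypB⟩ : B) ⟨b, hb⟩)
      simp only [Subgroup.coe_mul] at h
      rw [h, mul_inv_cancel_right]
    have hord : orderOf b = p := by rw [← Nat.card_zpowers, hgen, hBcard]
    have hmod : b ^ a ^ p = b ^ a := by
      rw [pow_eq_pow_iff_modEq, hord, ← ZMod.natCast_eq_natCast_iff]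
      push_cast
      exact ZMod.pow_card (a : ZMod p)
    have h1 : y * b * y⁻¹ = b := by rw [← ha, ← hmod, hfix]
    exact mul_inv_eq_iff_eq_mul.1 h1
  · rw [hx, map_mul, map_pow, hyr,
      show QuotientGroup.mk' B b = 1 from (QuotientGroup.eq_one_iff b).2 hb, one_mul]
    exact hrv i hi

/-- If all vanishing `p`-singular elements have the same order, the image of a Sylow `p`-subgroup
modulo `O_p(G)` has order at most `p`. -/
theorem card_map_sylow_le [Group.IsSolvable G] [(Cfsg.pCore p G).Normal] (b : ℕ)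
    (hb : ∀ g : G, Vanishes g → p ∣ orderOf g → orderOf g = b) (P : Sylow p G) :
    Nat.card ((P : Subgroup G).map (QuotientGroup.mk' (Cfsg.pCore p G))) ≤ p := by
  set O := Cfsg.pCore p G with hO
  have hle : (Nat.card (G ⧸ O)).factorization p ≤ 1 := by
    by_cases hd : p ∣ Nat.card (G ⧸ O)
    swap
    · rw [Nat.factorization_eq_zero_of_not_dvd hd]; exact zero_le_one
    obtain ⟨y, hy, hyv⟩ := exists_vanishing_order_p (pCore_quotient_pCore p) hd
    obtain ⟨x, hx, j, hj⟩ := exists_pElement_preimage O y (k := 1) (by rw [hy, pow_one])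
    have hxp : p ∣ orderOf x := hy ▸ hx ▸ orderOf_map_dvd (QuotientGroup.mk' O) x
    have hbj : b = p ^ j := by
      rw [← hj]
      refine (hb x ?_ hxp).symm
      have h := hyv 1 hp.out.not_dvd_one
      rw [pow_one, ← hx] at h
      exact h.of_mk
    have hflat : FlatVanishing p G := by
      refine ⟨fun g hg hgp => ⟨j, by rw [hb g hg hgp, hbj]⟩, fun g hg hgp hne hv => ?_⟩
      have h1 := orderOf_pow_of_dvd hp.out.ne_zero hgp
      have h2 : p ∣ orderOf (g ^ p) := by
        obtain ⟨k, hk⟩ : ∃ k, orderOf (g ^ p) = p ^ k := by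
          obtain ⟨k, -, hk⟩ := (Nat.dvd_prime_pow hp.out).1
            ((orderOf_pow_dvd p).trans (dvd_of_eq (by rw [hb g hg hgp, hbj])))
          exact ⟨k, hk⟩
        exact dvd_orderOf_of_pow hne hk
      rw [hb _ hv h2, hb g hg hgp] at h1
      have hbpos : 0 < b := hbj ▸ pow_pos hp.out.pos j
      exact (Nat.div_lt_self hbpos hp.out.one_lt).ne' h1
    exact factorization_le_one_of_flatVanishing (pCore_quotient_pCore p) (hflat.quotient O)
  obtain ⟨k, hk⟩ := IsPGroup.iff_card.1 (P.2.map (QuotientGroup.mk' O))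
  rw [hk]
  have h1 : k ≤ (Nat.card (G ⧸ O)).factorization p :=
    (hp.out.pow_dvd_iff_le_factorization Nat.card_pos.ne').1 (hk ▸ Subgroup.card_subgroup_dvd_card _)
  exact (Nat.pow_le_pow_right hp.out.pos (h1.trans hle)).trans (pow_one p).le

end Cfsg.Agent.H19
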